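import Mathlib
import Cfsg.Agent.Lib.Helper75.DihMk

/-! The centralizer of an involution of `A₆` is dihedral of order 8 (helper75). -/

set_option autoImplicit false

namespace Cfsg.Agent.Lib.Helper75.A6Cent

open Equiv Equiv.Perm

/-- transport of centralizers along an isomorphism -/
theorem nonempty_centralizer_equiv {A B : Type*} [Group A] [Group B] (φ : A ≃* B) (x : A) :
    Nonempty (Subgroup.centralizer ({x} : Set A) ≃* Subgroup.centralizer ({φ x} : Set B)) := by
  have h : (Subgroup.centralizer ({x} : Set A)).map φ.toMonoidHom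
      = Subgroup.centralizer ({φ x} : Set B) := by
    ext y
    rw [Subgroup.mem_map, Subgroup.mem_centralizer_singleton_iff]
    constructor
    · rintro ⟨z, hz, rfl⟩
      rw [Subgroup.mem_centralizer_singleton_iff] at hz
      show φ z * φ x = φ x * φ z
      rw [← map_mul, ← map_mul, hz]
    · intro hy
      refine ⟨φ.symm y, ?_, by simp⟩
      rw [Subgroup.mem_centralizer_singleton_iff]
      apply φ.injective
      simp [hy]
  exact ⟨(φ.subgroupMap _).trans (MulEquiv.subgroupCongr h)⟩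

theorem cycleType_eq (x : Perm (Fin 6)) (h2 : orderOf x = 2) (hs : x.support.card = 4) :
    x.cycleType = Multiset.replicate 2 2 := by
  obtain ⟨n, hn⟩ := Equiv.Perm.cycleType_prime_order (σ := x) (by rw [h2]; exact Nat.prime_two)
  rw [h2] at hn
  have h1 := x.sum_cycleType
  rw [hn, hs, Multiset.sum_replicate, smul_eq_mul] at h1
  have : n + 1 = 2 := by omega
  rw [hn, this]

/-- `(0 1)(2 3)` -/
def a₀ : Perm (Fin 6) := swap 0 1 * swap 2 3
/-- `(0 2 1 3)(4 5)` -/
def r₀ : Perm (Fin 6) := swap 0 3 * swap 0 1 * swap 0 2 * swap 4 5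
/-- `(0 1)(4 5)` -/
def s₀ : Perm (Fin 6) := swap 0 1 * swap 4 5

theorem a₀_mem : a₀ ∈ alternatingGroup (Fin 6) :=
  Equiv.Perm.mem_alternatingGroup.2 (by decide)
theorem r₀_mem : r₀ ∈ alternatingGroup (Fin 6) :=
  Equiv.Perm.mem_alternatingGroup.2 (by decide)
theorem s₀_mem : s₀ ∈ alternatingGroup (Fin 6) :=
  Equiv.Perm.mem_alternatingGroup.2 (by decide)

set_option maxRecDepth 100000 in
theorem card_cent : Fintype.card {g : Perm (Fin 6) // sign g = 1 ∧ g * a₀ = a₀ * g} = 8 := by
  decide +kernel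

theorem card_centralizer :
    Nat.card (Subgroup.centralizer ({⟨a₀, a₀_mem⟩} : Set (alternatingGroup (Fin 6)))) = 8 := by
  rw [← card_cent, ← Nat.card_eq_fintype_card]
  apply Nat.card_congr
  refine ⟨fun g => ⟨g.1.1, Equiv.Perm.mem_alternatingGroup.1 g.1.2, ?_⟩,
    fun g => ⟨⟨g.1, Equiv.Perm.mem_alternatingGroup.2 g.2.1⟩, ?_⟩, fun g => rfl, fun g => rfl⟩
  · have := Subgroup.mem_centralizer_singleton_iff.1 g.2
    exact congrArg Subtype.val this
  · rw [Subgroup.mem_centralizer_singleton_iff]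
    exact Subtype.ext g.2.2

theorem iso₀ : Nonempty (Subgroup.centralizer ({⟨a₀, a₀_mem⟩} : Set (alternatingGroup (Fin 6)))
    ≃* DihedralGroup 4) := by
  have h := DihS.of_card (G := alternatingGroup (Fin 6))
    (Subgroup.centralizer ({⟨a₀, a₀_mem⟩} : Set (alternatingGroup (Fin 6))))
    ⟨r₀, r₀_mem⟩ ⟨s₀, s₀_mem⟩ 4 le_rfl ⟨2, rfl⟩
    (by rw [Subgroup.mem_centralizer_singleton_iff]; decide)
    (by rw [Subgroup.mem_centralizer_singleton_iff]; decide)
    (by
      rw [show (4 : ℕ) = 2 ^ 2 by norm_num]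
      apply orderOf_eq_prime_pow
      · decide
      · decide)
    (orderOf_eq_prime (by decide) (by decide))
    (by decide)
    (by rw [card_centralizer])
  exact h.iso

theorem iso (x : alternatingGroup (Fin 6)) (h2 : orderOf x = 2)
    (hs : (x : Perm (Fin 6)).support.card = 4) :
    Nonempty (Subgroup.centralizer ({x} : Set (alternatingGroup (Fin 6))) ≃* DihedralGroup 4) := by
  have h1 : (x : Perm (Fin 6)).cycleType = Multiset.replicate 2 2 :=
    cycleType_eq _ (by rw [Subgroup.orderOf_coe, h2]) hs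
  have h0 : a₀.cycleType = Multiset.replicate 2 2 :=
    cycleType_eq _ (orderOf_eq_prime (by decide) (by decide)) (by decide)
  obtain ⟨g, hg⟩ := isConj_iff.1 (Equiv.Perm.isConj_iff_cycleType_eq.2 (h0.trans h1.symm))
  obtain ⟨e⟩ := nonempty_centralizer_equiv (MulAut.conjNormal g : MulAut (alternatingGroup (Fin 6)))
    ⟨a₀, a₀_mem⟩
  have hx : (MulAut.conjNormal g : MulAut (alternatingGroup (Fin 6))) ⟨a₀, a₀_mem⟩ = x := by
    apply Subtype.ext
    rw [MulAut.conjNormal_apply]
    exact hg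
  rw [hx] at e
  obtain ⟨e₀⟩ := iso₀
  exact ⟨e.symm.trans e₀⟩

end Cfsg.Agent.Lib.Helper75.A6Cent
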