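import Mathlib
import Cfsg.Prelude.Def_Blocks
import Cfsg.Agent.Lib.Helper74.CharBasic
import Cfsg.Agent.Lib.Helper78.LocalRing
import Cfsg.Agent.Lib.Helper78.ClassAlg
import Cfsg.Agent.Lib.Helper80.Eigen

/-!
# Elementary facts on `blockCoeff`, `SameBlock` (helper75)
-/

set_option autoImplicit false
set_option linter.unusedSectionVars false

namespace Cfsg.Agent.Lib.Helper75

open Cfsg Cfsg.Agent.Lib.Helper74 Cfsg.Agent.Lib.Helper78
open scoped ComplexConjugate

variable {G : Type*} [Group G]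

open Classical in
theorem blockCoeff_eq_sum [Finite G] (B : Set (IrrCharacter G)) (g : G) :
    blockCoeff B g = (Nat.card G : ℂ)⁻¹ *
      ∑ χ ∈ Finset.univ.filter (· ∈ B), (χ : G → ℂ) 1 * conj ((χ : G → ℂ) g) := by
  unfold blockCoeff
  rw [finsum_mem_eq_finite_toFinset_sum _ (Set.toFinite _)]
  congr 1
  apply Finset.sum_congr
  · ext χ; simp
  · intro χ _; rfl

theorem blockCoeff_conj [Finite G] (B : Set (IrrCharacter G)) (x g : G) :
    blockCoeff B (x * g * x⁻¹) = blockCoeff B g := by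
  classical
  rw [blockCoeff_eq_sum, blockCoeff_eq_sum]
  congr 1
  apply Finset.sum_congr rfl
  intro χ _
  rw [irr_isClassFunction χ]

open Classical in
/-- `ω_ψ(e_B) = [ψ ∈ B]`, in the form `∑ g, a_B(g) ψ(g) = ψ(1) [ψ ∈ B]`. -/
theorem sum_blockCoeff_mul [Fintype G] (B : Set (IrrCharacter G)) (ψ : IrrCharacter G) :
    ∑ g, blockCoeff B g * (ψ : G → ℂ) g = if ψ ∈ B then (ψ : G → ℂ) 1 else 0 := by
  simp only [blockCoeff_eq_sum]
  have h1 : ∀ g : G, (Nat.card G : ℂ)⁻¹ *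
      (∑ χ ∈ Finset.univ.filter (· ∈ B), (χ : G → ℂ) 1 * conj ((χ : G → ℂ) g)) * (ψ : G → ℂ) g =
      ∑ χ ∈ Finset.univ.filter (· ∈ B), (χ : G → ℂ) 1 *
        ((Nat.card G : ℂ)⁻¹ * ((ψ : G → ℂ) g * conj ((χ : G → ℂ) g))) := by
    intro g
    rw [Finset.mul_sum, Finset.sum_mul]
    apply Finset.sum_congr rfl
    intro χ _; ring
  simp only [h1]
  rw [Finset.sum_comm]
  have h2 : ∀ χ : IrrCharacter G, ∑ g : G, (χ : G → ℂ) 1 *
        ((Nat.card G : ℂ)⁻¹ * ((ψ : G → ℂ) g * conj ((χ : G → ℂ) g))) =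
      (χ : G → ℂ) 1 * classInner (ψ : G → ℂ) (χ : G → ℂ) := by
    intro χ
    unfold classInner
    rw [← Finset.mul_sum, ← Finset.mul_sum]
  simp only [h2, classInner_irr]
  by_cases hψ : ψ ∈ B
  · rw [if_pos hψ, Finset.sum_eq_single ψ]
    · simp
    · intro χ _ hne
      rw [if_neg (Ne.symm hne), mul_zero]
    · intro h; exact absurd (by simp [hψ]) h
  · rw [if_neg hψ]
    apply Finset.sum_eq_zero
    intro χ hχ
    have hχB : χ ∈ B := by simpa using hχ
    rw [if_neg, mul_zero]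
    rintro rfl; exact hψ hχB

variable {M : Ideal AlgInt}

theorem sameBlock_refl (hM : M.IsPrime) (χ : G → ℂ) : SameBlock M χ χ := by
  intro g; rw [sub_self]; exact memLocalIdeal_zero hM

theorem SameBlock.symm' {χ ψ : G → ℂ} (h : SameBlock M χ ψ) : SameBlock M ψ χ := by
  intro g
  have := MemLocalIdeal.neg (h g)
  rwa [neg_sub] at this

theorem SameBlock.trans' (hM : M.IsPrime) {χ ψ θ : G → ℂ} (h1 : SameBlock M χ ψ)
    (h2 : SameBlock M ψ θ) : SameBlock M χ θ := by
  intro g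
  have := MemLocalIdeal.add hM (h1 g) (h2 g)
  rwa [sub_add_sub_cancel] at this

theorem sameBlock_of_mem (hM : M.IsPrime) {B : Set (IrrCharacter G)} (hB : IsPBlock M B)
    {χ ψ : IrrCharacter G} (hχ : χ ∈ B) (hψ : ψ ∈ B) : SameBlock M (χ : G → ℂ) (ψ : G → ℂ) := by
  obtain ⟨θ, rfl⟩ := hB
  exact SameBlock.trans' hM (SameBlock.symm' hχ) hψ

theorem IsPBlock.eq_blockOf (hM : M.IsPrime) {B : Set (IrrCharacter G)} (hB : IsPBlock M B)
    {χ : IrrCharacter G} (hχ : χ ∈ B) : B = blockOf M (χ : G → ℂ) := by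
  obtain ⟨θ, rfl⟩ := hB
  ext ψ
  constructor
  · intro hψ; exact SameBlock.trans' hM (SameBlock.symm' hχ) hψ
  · intro hψ; exact SameBlock.trans' hM hχ hψ

theorem IsPBlock.nonempty (hM : M.IsPrime) {B : Set (IrrCharacter G)} (hB : IsPBlock M B) :
    B.Nonempty := by
  obtain ⟨θ, rfl⟩ := hB
  exact ⟨θ, sameBlock_refl hM _⟩

/-- the trivial character as an element of `IrrCharacter G` -/
noncomputable def oneIrr (G : Type*) [Group G] : IrrCharacter G := ⟨fun _ => 1, isIrrCharacter_one⟩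

theorem principalBlock_isPBlock (M : Ideal AlgInt) : IsPBlock M (principalBlock M G) :=
  ⟨oneIrr G, rfl⟩

theorem oneIrr_mem_principalBlock (hM : M.IsPrime) : oneIrr G ∈ principalBlock M G :=
  sameBlock_refl hM _

theorem eq_principalBlock_of_one_mem (hM : M.IsPrime) {B : Set (IrrCharacter G)} (hB : IsPBlock M B)
    (h1 : oneIrr G ∈ B) : B = principalBlock M G := by
  have h := IsPBlock.eq_blockOf hM hB h1
  rw [h]
  unfold principalBlock oneIrr
  rfl

/-- the local ideal as an additive subgroup of `ℂ` -/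
def localIdealAdd (M : Ideal AlgInt) (hM : M.IsPrime) : AddSubgroup ℂ where
  carrier := {z | MemLocalIdeal M z}
  add_mem' := by
    intro a b ha hb
    exact MemLocalIdeal.add hM ha hb
  zero_mem' := by
    show MemLocalIdeal M 0
    exact memLocalIdeal_zero hM
  neg_mem' := by
    intro a ha
    exact MemLocalIdeal.neg ha

theorem mem_localIdealAdd (hM : M.IsPrime) {z : ℂ} : z ∈ localIdealAdd M hM ↔ MemLocalIdeal M z :=
  Iff.rfl

theorem irr_memLocalRing [Finite G] (hM : M.IsPrime) (χ : IrrCharacter G) (g : G) :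
    MemLocalRing M ((χ : G → ℂ) g) := by
  obtain ⟨χ, n, ρ, hρ, rfl⟩ := χ
  apply memLocalRing_of_isIntegral hM
  exact Cfsg.Agent.Lib.Helper80.isIntegral_char ρ g

end Cfsg.Agent.Lib.Helper75
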