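import Mathlib
import Cfsg.Agent.Lib.Helper75.Necklace

/-!
# Sums of class functions, pairing by a fixed point free involution (helper75)
-/

set_option autoImplicit false
set_option linter.unusedSectionVars false

namespace Cfsg.Agent.Lib.Helper75

/-- Sum over a finite set with a fixed-point-free involution `ι`: if `F g + F (ι g) ∈ A` for all `g`
then the whole sum lies in the additive subgroup `A`. -/
theorem sum_mem_of_involution {α E : Type*} [AddCommGroup E] (A : AddSubgroup E) (s : Finset α)
    (F : α → E) (ι : α → α) (h1 : ∀ g ∈ s, ι g ∈ s) (h2 : ∀ g ∈ s, ι (ι g) = g)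
    (h3 : ∀ g ∈ s, ι g ≠ g) (h4 : ∀ g ∈ s, F g + F (ι g) ∈ A) : ∑ g ∈ s, F g ∈ A := by
  rw [← QuotientAddGroup.eq_zero_iff]
  have : ((∑ g ∈ s, F g : E) : E ⧸ A) = ∑ g ∈ s, (QuotientAddGroup.mk' A) (F g) := by
    rw [← map_sum]; rfl
  rw [this]
  apply Finset.sum_involution (fun g _ => ι g)
  · intro g hg
    rw [← map_add]
    exact (QuotientAddGroup.eq_zero_iff _).2 (h4 g hg)
  · intro g hg _
    exact h3 g hg
  · intro g hg
    exact h1 g hg
  · intro g hg
    exact h2 g hg

/-- Sum of a class function with values in a commutative ring: if `q` divides the class size of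
every `g` at which `f` does not vanish, then `q` divides `∑ g, f g`. -/
theorem class_sum_dvd {G S : Type*} [Group G] [Fintype G] [CommRing S] (f : G → S)
    (hf : ∀ x g : G, f (x * g * x⁻¹) = f g) (q : ℕ)
    (hq : ∀ g : G, f g = 0 ∨ q ∣ (Subgroup.centralizer ({g} : Set G)).index) :
    (q : S) ∣ ∑ g, f g := by
  apply orbit_sum_dvd (Γ := ConjAct G) f
  · intro γ w
    rw [ConjAct.smul_def]
    exact hf _ _
  · intro w
    rcases hq w with h | h
    · left; exact h
    · right
      rw [← MulAction.index_stabilizer, ConjAct.stabilizer_eq_centralizer]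
      exact h

end Cfsg.Agent.Lib.Helper75
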