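import Mathlib
import Cfsg.Agent.Lib.Helper75.D8Cent2
import Cfsg.Agent.S0215

/-! Groups with an involution whose centralizer is dihedral of order 8: the isolated case. -/

set_option autoImplicit false
set_option linter.unusedSectionVars false

namespace Cfsg.Agent.Lib.Helper75

open Cfsg Cfsg.Agent.Lib.Helper55 Cfsg.Agent.Lib.Lead

namespace DihS

variable {G : Type*} [Group G] {P : Subgroup G} {σ τ : G} {N : ℕ}

theorem conj_xτ (h : DihS P σ τ N) {d : G} (hd : d ∈ Subgroup.zpowers σ) (x : G) :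
    d * (x * τ) * d⁻¹ = d * x * d * τ := by
  have h1 : τ * d⁻¹ = d * τ := by
    have := h.τ_conj (Subgroup.inv_mem _ hd)
    rw [inv_inv] at this
    exact mul_inv_eq_iff_eq_mul.1 this
  calc d * (x * τ) * d⁻¹ = d * x * (τ * d⁻¹) := by group
    _ = d * x * d * τ := by rw [h1]; group

theorem isConj_cτ (h : DihS P σ τ N) {c : G} (hc : c ∈ Subgroup.zpowers σ) :
    IsConj τ (c * τ) ∨ IsConj (σ * τ) (c * τ) := by
  obtain ⟨k, rfl⟩ := hc
  rcases Int.even_or_odd' k with ⟨j, rfl | rfl⟩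
  · left
    refine isConj_iff.2 ⟨σ ^ j, ?_⟩
    have := h.conj_xτ (Subgroup.zpow_mem_zpowers σ j) 1
    rw [one_mul, mul_one] at this
    show σ ^ j * τ * (σ ^ j)⁻¹ = σ ^ (2 * j) * τ
    rw [this, two_mul, zpow_add]
  · right
    refine isConj_iff.2 ⟨σ ^ j, ?_⟩
    show σ ^ j * (σ * τ) * (σ ^ j)⁻¹ = σ ^ (2 * j + 1) * τ
    rw [h.conj_xτ (Subgroup.zpow_mem_zpowers σ j) σ]
    congr 1
    rw [two_mul, zpow_add, zpow_add, zpow_one]
    have : σ ^ j * σ = σ * σ ^ j := (Commute.zpow_self σ j).symm.eq.symm ▸ rfl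
    rw [mul_assoc, mul_assoc]
    congr 1
    exact (Commute.self_zpow σ j).eq

end DihS

namespace D8C

variable {G : Type*} [Group G] [Finite G] {T : Sylow 2 G} {σ τ : G}

theorem swap (H : D8C T σ τ) : D8C T σ (σ * τ) := by
  refine ⟨DihS.of_card _ σ (σ * τ) 4 le_rfl ⟨2, rfl⟩ H.dih.σ_mem
    (Subgroup.mul_mem _ H.dih.σ_mem H.dih.τ_mem) H.dih.ord_σ ?_ ?_ H.card_T, H.cen⟩
  · apply orderOf_eq_prime
    · rw [sq]; exact H.dih.cτ_sq (Subgroup.mem_zpowers σ)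
    · intro h1
      apply H.dih.στ_not_mem
      rw [h1]; exact one_mem _
  · exact H.dih.cτ_conj (Subgroup.mem_zpowers σ) (Subgroup.mem_zpowers σ)

theorem isConj_σστ (H : D8C T σ τ) : IsConj τ (σ * (σ * τ)) := by
  have h4 : (4 / 2 : ℕ) = 2 := by norm_num
  have := H.isConj_Jτ
  rwa [h4, sq, mul_assoc] at this

/-- every involution of `T` is the central one or conjugate to `τ` or `σ τ` -/
theorem invol_cases (H : D8C T σ τ) {y : G} (hy : y ∈ (T : Subgroup G)) (h2 : y * y = 1)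
    (h1 : y ≠ 1) : y = σ ^ (4 / 2) ∨ IsConj τ y ∨ IsConj (σ * τ) y := by
  rcases H.dih.cases y hy with h3 | ⟨c, hc, rfl⟩
  · rcases H.dih.sq_eq_one_cases h3 h2 with h4 | h4
    · exact absurd h4 h1
    · exact Or.inl h4
  · exact Or.inr (H.dih.isConj_cτ hc)

theorem card_ne_eight (H : D8C T σ τ) (c1 : IsConj (σ ^ (4 / 2)) τ) : Nat.card G ≠ 8 := by
  intro h8
  have htop : (T : Subgroup G) = ⊤ := Subgroup.eq_top_of_card_eq _ (by rw [H.card_T, h8])
  obtain ⟨g, hg⟩ := isConj_iff.1 c1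
  have hgT : g ∈ (T : Subgroup G) := htop ▸ Subgroup.mem_top g
  rw [H.dih.J_central hgT, mul_inv_cancel_right] at hg
  apply H.dih.τ_not_mem
  rw [← hg]
  exact DihS.J_mem

/-- the isolated case, by Glauberman's `Z*`-theorem -/
theorem isolated (H : D8C T σ τ) (c1 : ¬ IsConj (σ ^ (4 / 2)) τ)
    (c2 : ¬ IsConj (σ ^ (4 / 2)) (σ * τ)) :
    Subgroup.centralizer ({σ ^ (4 / 2)} : Set G) ⊔ Cfsg.oddCore G = ⊤ := by
  obtain ⟨J, hJ⟩ : ∃ J : G, J = σ ^ (4 / 2) := ⟨_, rfl⟩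
  have hJT : J ∈ (T : Subgroup G) := hJ ▸ Subgroup.pow_mem _ H.dih.σ_mem _
  have hJJ : J * J = 1 := hJ ▸ H.dih.J_sq
  have hJinv : J⁻¹ = J := inv_eq_of_mul_eq_one_left hJJ
  have hJ1 : J ≠ 1 := hJ ▸ H.dih.J_ne_one
  obtain ⟨N, hN, hodd, hcomm⟩ := Cfsg.Agent.S0215.result T J (hJ ▸ H.dih.ord_J) hJT (by
    intro g hg
    have h2 : (g * J * g⁻¹) * (g * J * g⁻¹) = 1 := by
      have : (g * J * g⁻¹) * (g * J * g⁻¹) = g * (J * J) * g⁻¹ := by group
      rw [this, hJJ]; group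
    have hc : IsConj J (g * J * g⁻¹) := isConj_iff.2 ⟨g, rfl⟩
    rcases H.invol_cases hg h2 (fun h => hJ1 (conj_eq_one_iff.1 h)) with h3 | h3 | h3
    · rw [h3, hJ]
    · exact absurd (hJ ▸ hc.trans h3.symm) c1
    · exact absurd (hJ ▸ hc.trans h3.symm) c2)
  rw [← hJ]
  have hNle : N ≤ Cfsg.oddCore G := le_pPrimeCore hN (Nat.coprime_two_right.2 hodd)
  rw [eq_top_iff]
  intro g _
  obtain ⟨w, hw⟩ : ∃ w : G, w = g * J * g⁻¹ * J := ⟨_, rfl⟩
  have hwN : w ∈ N := by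
    have h1 := N.inv_mem (hcomm g)
    have : (J * g * J⁻¹ * g⁻¹)⁻¹ = w := by
      have e0 : (J * g * J⁻¹ * g⁻¹)⁻¹ = g * J * g⁻¹ * J⁻¹ := by group
      rw [e0, hw, hJinv]
    rwa [this] at h1
  have hwinv : J * w * J⁻¹ = w⁻¹ := by
    rw [hw, hJinv]
    have e1 : (g * J * g⁻¹ * J)⁻¹ = J⁻¹ * g * J⁻¹ * g⁻¹ := by group
    rw [e1, hJinv]
    calc J * (g * J * g⁻¹ * J) * J = J * g * J * g⁻¹ * (J * J) := by group
      _ = J * g * J * g⁻¹ := by rw [hJJ, mul_one]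
  have hmodd : Odd (orderOf w) := by
    have h1 : orderOf w ∣ Nat.card N := by
      have := orderOf_dvd_natCard (⟨w, hwN⟩ : N)
      rwa [Subgroup.orderOf_mk] at this
    exact Odd.of_dvd_nat hodd h1
  obtain ⟨m, hm⟩ := hmodd
  obtain ⟨v, hv⟩ : ∃ v : G, v = w ^ (m + 1) := ⟨_, rfl⟩
  have hvv : v * v = w := by
    rw [hv, ← pow_add]
    have : m + 1 + (m + 1) = orderOf w + 1 := by omega
    rw [this, pow_add, pow_orderOf_eq_one, one_mul, pow_one]
  have hvN : v ∈ N := hv ▸ N.pow_mem hwN _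
  have hvinv : J * v * J⁻¹ = v⁻¹ := by
    rw [hv, ← inv_pow, ← hwinv, conj_pow]
  have hkey : v * J * v⁻¹ = g * J * g⁻¹ := by
    have e1 : v * J * v⁻¹ = v * (J * v * J⁻¹)⁻¹ * J := by group
    rw [e1, hvinv, inv_inv, hvv, hw, mul_assoc, hJJ, mul_one]
  have hcen : v⁻¹ * g ∈ Subgroup.centralizer ({J} : Set G) := by
    rw [Subgroup.mem_centralizer_singleton_iff]
    have e2 : g * J = v * J * v⁻¹ * g := by rw [hkey]; group
    calc v⁻¹ * g * J = v⁻¹ * (g * J) := by group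
      _ = v⁻¹ * (v * J * v⁻¹ * g) := by rw [e2]
      _ = J * (v⁻¹ * g) := by group
  have : g = v * (v⁻¹ * g) := by group
  rw [this]
  exact Subgroup.mul_mem _ (Subgroup.mem_sup_right (hNle hvN)) (Subgroup.mem_sup_left hcen)

end D8C

end Cfsg.Agent.Lib.Helper75
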