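import Cfsg.Agent.Lib.Helper75.LBMT
import Cfsg.Agent.Lib.Helper8.LBME
import Cfsg.Agent.Lib.Helper60.LBP2

set_option autoImplicit false

/-!
# S2733 farm (helper80), piece [F]: `p2c_I`
-/

namespace Cfsg.Agent.Lib.Helper75.LBM

open Matrix

variable {F : Type*} [Field F]

/-- block diagonal embedding of matrices. -/
def bdM (d₁ d₂ : ℕ) : Matrix (Fin d₁) (Fin d₁) F × Matrix (Fin d₂) (Fin d₂) F →*
    Matrix (Fin d₁ ⊕ Fin d₂) (Fin d₁ ⊕ Fin d₂) F where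
  toFun p := fromBlocks p.1 0 0 p.2
  map_one' := fromBlocks_one
  map_mul' a b := by simp [fromBlocks_multiply]

/-- block diagonal embedding of general linear groups. -/
def bdG (d₁ d₂ : ℕ) : GL (Fin d₁) F × GL (Fin d₂) F →* GL (Fin d₁ ⊕ Fin d₂) F :=
  (Units.map (bdM d₁ d₂)).comp (MulEquiv.prodUnits.symm.toMonoidHom)

lemma bdG_val (d₁ d₂ : ℕ) (p : GL (Fin d₁) F × GL (Fin d₂) F) :
    (bdG d₁ d₂ p).1 = fromBlocks p.1.1 0 0 p.2.1 := rfl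

lemma side_fst [Fintype F] (h2 : (2 : F) ≠ 0) {d : ℕ} {N : Type*} [Group N] (hd : 3 ≤ d)
    (G : Matrix (Fin d) (Fin d) F) (hG : Gᵀ = G) (hdet : G.det ≠ 0)
    (K : Subgroup (GL (Fin d) F × N)) (hK : ∀ p ∈ K, p.1.1ᵀ * G * p.1.1 = G)
    (hnorm : ∀ x : GL (Fin d) F, x.1ᵀ * G * x.1 = G → ∀ p ∈ K, (x * p.1 * x⁻¹, p.2) ∈ K)
    (hns : ∃ p ∈ K, ∀ c : F, p.1.1 ≠ c • (1 : Matrix (Fin d) (Fin d) F)) :
    ∃ p ∈ K, p.1 * p.1 = 1 ∧ ∀ c : F, p.1.1 ≠ c • (1 : Matrix (Fin d) (Fin d) F) := by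
  obtain ⟨t, ⟨p, hp, rfl⟩, ht1, -, ht2⟩ := Cfsg.Agent.Lib.Helper60.LBP.oddO_geom h2 hd G hG hdet
    (K.map (MonoidHom.fst _ _))
    (by rintro _ ⟨p, hp, rfl⟩; exact hK p hp)
    (by rintro x hx _ ⟨p, hp, rfl⟩; exact ⟨_, hnorm x hx p hp, rfl⟩)
    (by obtain ⟨p, hp, h⟩ := hns; exact ⟨_, ⟨p, hp, rfl⟩, h⟩)
  exact ⟨p, hp, ht1, ht2⟩

lemma side_snd [Fintype F] (h2 : (2 : F) ≠ 0) {d : ℕ} {N : Type*} [Group N] (hd : 3 ≤ d)
    (G : Matrix (Fin d) (Fin d) F) (hG : Gᵀ = G) (hdet : G.det ≠ 0)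
    (K : Subgroup (N × GL (Fin d) F)) (hK : ∀ p ∈ K, p.2.1ᵀ * G * p.2.1 = G)
    (hnorm : ∀ x : GL (Fin d) F, x.1ᵀ * G * x.1 = G → ∀ p ∈ K, (p.1, x * p.2 * x⁻¹) ∈ K)
    (hns : ∃ p ∈ K, ∀ c : F, p.2.1 ≠ c • (1 : Matrix (Fin d) (Fin d) F)) :
    ∃ p ∈ K, p.2 * p.2 = 1 ∧ ∀ c : F, p.2.1 ≠ c • (1 : Matrix (Fin d) (Fin d) F) := by
  obtain ⟨t, ⟨p, hp, rfl⟩, ht1, -, ht2⟩ := Cfsg.Agent.Lib.Helper60.LBP.oddO_geom h2 hd G hG hdet
    (K.map (MonoidHom.snd _ _))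
    (by rintro _ ⟨p, hp, rfl⟩; exact hK p hp)
    (by rintro x hx _ ⟨p, hp, rfl⟩; exact ⟨_, hnorm x hx p hp, rfl⟩)
    (by obtain ⟨p, hp, h⟩ := hns; exact ⟨_, ⟨p, hp, rfl⟩, h⟩)
  exact ⟨p, hp, ht1, ht2⟩

lemma three_le_of_nonscalar {d : ℕ} (hd : Odd d) (A : Matrix (Fin d) (Fin d) F)
    (hA : ∀ c : F, A ≠ c • (1 : Matrix (Fin d) (Fin d) F)) : 3 ≤ d := by
  by_contra hlt
  have h1 : d = 1 := by
    obtain ⟨m, rfl⟩ := hd
    omega
  subst h1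
  apply hA (A 0 0)
  ext i j
  rw [Subsingleton.elim i 0, Subsingleton.elim j 0]
  simp

lemma isom_blocks {d₁ d₂ : ℕ} (G₁ a : Matrix (Fin d₁) (Fin d₁) F)
    (G₂ b : Matrix (Fin d₂) (Fin d₂) F) :
    (fromBlocks a 0 0 b)ᵀ * fromBlocks G₁ 0 0 G₂ * fromBlocks a 0 0 b
      = fromBlocks (aᵀ * G₁ * a) 0 0 (bᵀ * G₂ * b) := by
  simp [fromBlocks_transpose, fromBlocks_multiply]

lemma comm_blocks {d₁ d₂ : ℕ} (a : Matrix (Fin d₁) (Fin d₁) F) (b : Matrix (Fin d₂) (Fin d₂) F) :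
    fromBlocks a 0 0 b * fromBlocks 1 0 0 (-1) = fromBlocks 1 0 0 (-1) * fromBlocks a 0 0 b := by
  simp [fromBlocks_multiply]

theorem p2c_blocks [Fintype F] (h2 : (2 : F) ≠ 0) {d₁ d₂ : ℕ} (hd₁ : Odd d₁) (hd₂ : Odd d₂)
    (G₁ : Matrix (Fin d₁) (Fin d₁) F) (G₂ : Matrix (Fin d₂) (Fin d₂) F)
    (hG₁ : G₁ᵀ = G₁) (hG₂ : G₂ᵀ = G₂) (hdet₁ : G₁.det ≠ 0) (hdet₂ : G₂.det ≠ 0) :
    P2C (fromBlocks G₁ 0 0 G₂) (fromBlocks 1 0 0 (-1)) := by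
  intro H hH hnorm hns
  have : Nonempty (Fin d₁) := ⟨⟨0, hd₁.pos⟩⟩
  have : Nonempty (Fin d₂) := ⟨⟨0, hd₂.pos⟩⟩
  set K := H.comap (bdG d₁ d₂) with hK
  have memK : ∀ p, p ∈ K ↔ bdG d₁ d₂ p ∈ H := fun p => Iff.rfl
  -- isometry conditions
  have isoK : ∀ p ∈ K, p.1.1ᵀ * G₁ * p.1.1 = G₁ ∧ p.2.1ᵀ * G₂ * p.2.1 = G₂ := by
    intro p hp
    have h := (hH _ hp).1
    rw [bdG_val, isom_blocks, fromBlocks_inj] at h
    exact ⟨h.1, h.2.2.2⟩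
  -- every element of `H` is block diagonal
  have surj : ∀ y ∈ H, ∃ p ∈ K, bdG d₁ d₂ p = y := by
    intro y hy
    obtain ⟨h1, h3⟩ := hH y hy
    obtain ⟨A, B, C, D, hABCD⟩ : ∃ A B C D, y.1 = fromBlocks A B C D :=
      ⟨_, _, _, _, (fromBlocks_toBlocks y.1).symm⟩
    rw [hABCD] at h1 h3
    simp only [fromBlocks_multiply, Matrix.mul_one, Matrix.mul_zero, Matrix.one_mul,
      Matrix.zero_mul, add_zero, zero_add, Matrix.mul_neg, Matrix.neg_mul, fromBlocks_inj] at h3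
    have hz : ∀ {m n : Type} (X : Matrix m n F), -X = X → X = 0 := by
      intro m n X hX
      ext i j
      have h4 : -(X i j) = X i j := congrFun (congrFun hX i) j
      have h5 : (2 : F) * X i j = 0 := by linear_combination -h4
      simpa [h2] using h5
    have hB : B = 0 := hz B h3.2.1
    have hC : C = 0 := hz C h3.2.2.1.symm
    subst hB hC
    rw [isom_blocks, fromBlocks_inj] at h1
    have hdA : A.det ≠ 0 := by
      intro h0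
      apply hdet₁
      rw [← h1.1, Matrix.det_mul, h0, mul_zero]
    have hdD : D.det ≠ 0 := by
      intro h0
      apply hdet₂
      rw [← h1.2.2.2, Matrix.det_mul, h0, mul_zero]
    have hy' : bdG d₁ d₂ (Matrix.GeneralLinearGroup.mkOfDetNeZero A hdA,
        Matrix.GeneralLinearGroup.mkOfDetNeZero D hdD) = y := by
      apply Units.ext
      rw [bdG_val, hABCD]
      rfl
    exact ⟨_, by rw [memK, hy']; exact hy, hy'⟩
  -- normality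
  have normK : ∀ q : GL (Fin d₁) F × GL (Fin d₂) F, q.1.1ᵀ * G₁ * q.1.1 = G₁ →
      q.2.1ᵀ * G₂ * q.2.1 = G₂ → ∀ p ∈ K, q * p * q⁻¹ ∈ K := by
    intro q hq1 hq2 p hp
    rw [memK, map_mul, map_mul, map_inv]
    refine hnorm _ ?_ ?_ _ hp
    · rw [bdG_val, isom_blocks, hq1, hq2]
    · rw [bdG_val, comm_blocks]
  have smul_one_blocks : ∀ c : F, c • (1 : Matrix (Fin d₁ ⊕ Fin d₂) (Fin d₁ ⊕ Fin d₂) F)
      = fromBlocks (c • 1) 0 0 (c • 1) := by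
    intro c
    rw [← fromBlocks_one, fromBlocks_smul, smul_zero, smul_zero]
  by_cases c1 : ∃ p ∈ K, ∀ c : F, p.1.1 ≠ c • (1 : Matrix (Fin d₁) (Fin d₁) F)
  · have hd : 3 ≤ d₁ := by
      obtain ⟨p, -, hp⟩ := c1
      exact three_le_of_nonscalar hd₁ _ hp
    obtain ⟨p, hp, hp1, hp2⟩ := side_fst h2 hd G₁ hG₁ hdet₁ K (fun p hp => (isoK p hp).1)
      (fun x hx p hp => by
        have := normK (x, 1) hx (by simp) p hp
        have e : ((x, 1) : GL (Fin d₁) F × GL (Fin d₂) F) * p * (x, 1)⁻¹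
            = (x * p.1 * x⁻¹, p.2) := by
          apply Prod.ext <;> simp
        rwa [e] at this) c1
    refine ⟨_, hp, fun k hk c hc => hp2 c ?_⟩
    rw [← map_pow, bdG_val, smul_one_blocks, fromBlocks_inj, Prod.pow_fst,
      pow_odd_of_mul_self hp1 hk] at hc
    exact hc.1
  by_cases c2 : ∃ p ∈ K, ∀ c : F, p.2.1 ≠ c • (1 : Matrix (Fin d₂) (Fin d₂) F)
  · have hd : 3 ≤ d₂ := by
      obtain ⟨p, -, hp⟩ := c2
      exact three_le_of_nonscalar hd₂ _ hp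
    obtain ⟨p, hp, hp1, hp2⟩ := side_snd h2 hd G₂ hG₂ hdet₂ K (fun p hp => (isoK p hp).2)
      (fun x hx p hp => by
        have := normK (1, x) (by simp) hx p hp
        have e : ((1, x) : GL (Fin d₁) F × GL (Fin d₂) F) * p * (1, x)⁻¹
            = (p.1, x * p.2 * x⁻¹) := by
          apply Prod.ext <;> simp
        rwa [e] at this) c2
    refine ⟨_, hp, fun k hk c hc => hp2 c ?_⟩
    rw [← map_pow, bdG_val, smul_one_blocks, fromBlocks_inj, Prod.pow_snd,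
      pow_odd_of_mul_self hp1 hk] at hc
    exact hc.2.2.2
  push Not at c1 c2
  obtain ⟨y, hy, hyns⟩ := hns
  obtain ⟨p, hp, rfl⟩ := surj y hy
  obtain ⟨a, ha⟩ := c1 p hp
  obtain ⟨b, hb⟩ := c2 p hp
  have hiso := isoK p hp
  have ha2 : a * a = 1 := scalar_isom_sq G₁ hdet₁ a (by rw [← ha]; exact hiso.1)
  have hb2 : b * b = 1 := scalar_isom_sq G₂ hdet₂ b (by rw [← hb]; exact hiso.2)
  have hpp : p * p = 1 := by
    apply Prod.ext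
    · apply Units.ext
      simp [ha, smul_smul, ha2]
    · apply Units.ext
      simp [hb, smul_smul, hb2]
  refine ⟨_, hy, fun k hk c hc => hyns c ?_⟩
  rwa [← map_pow, pow_odd_of_mul_self hpp hk] at hc

/-- [F] P2C-I: normal subgroups of the centraliser of an isometry `g` of order two with odd
dimensional eigenspaces. -/
theorem p2c_I {F : Type*} [Field F] [Fintype F] (h2 : (2 : F) ≠ 0) {ι : Type*} [Fintype ι]
    [DecidableEq ι] (Γ : Matrix ι ι F) (hΓ : Γᵀ = Γ) (hdet : Γ.det ≠ 0) (g : GL ι F)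
    (hg : g.1ᵀ * Γ * g.1 = Γ) (hgg : g * g = 1) (hdetg : g.1.det = -1)
    (hcard : Even (Fintype.card ι))
    (H : Subgroup (GL ι F)) (hH : ∀ y ∈ H, y.1ᵀ * Γ * y.1 = Γ ∧ y * g = g * y)
    (hnorm : ∀ c : GL ι F, c.1ᵀ * Γ * c.1 = Γ → c * g = g * c → ∀ y ∈ H, c * y * c⁻¹ ∈ H)
    (hns : ∃ y ∈ H, ∀ c : F, y.1 ≠ c • (1 : Matrix ι ι F)) :
    ∃ t ∈ H, ∀ k : ℕ, Odd k → ∀ c : F, (t ^ k).1 ≠ c • (1 : Matrix ι ι F) := by
  have hgg' : g.1 * g.1 = 1 := by rw [← Units.val_mul, hgg, Units.val_one]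
  obtain ⟨d₁, d₂, P, P', G₁, G₂, hPP', hP'P, hgb, hΓb⟩ :=
    Cfsg.Agent.Lib.Helper8.LBM.exists_eigen_blocks h2 Γ g.1 hg hgg'
  have hsym : (fromBlocks G₁ 0 0 G₂)ᵀ = fromBlocks G₁ 0 0 G₂ := by
    rw [← hΓb]
    simp only [Matrix.transpose_mul, Matrix.transpose_transpose, hΓ, Matrix.mul_assoc]
  rw [fromBlocks_transpose, fromBlocks_inj] at hsym
  have hdetb : (fromBlocks G₁ 0 0 G₂).det ≠ 0 := by
    rw [← hΓb]
    exact det_congr_ne_zero P P' hPP' hP'P Γ hdet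
  rw [det_fromBlocks_zero₂₁] at hdetb
  have hc : Fintype.card ι = d₁ + d₂ := by
    rw [card_eq_of_mul_eq_one P P' hPP' hP'P]
    simp
  have hd₂ : Odd d₂ := by
    have h1 : (P' * g.1 * P).det = g.1.det := Matrix.det_conj_of_mul_eq_one hP'P hPP'
    rw [hgb, det_fromBlocks_zero₂₁, Matrix.det_one, Matrix.det_neg, Matrix.det_one, hdetg, one_mul,
      mul_one, Fintype.card_fin] at h1
    by_contra hodd
    rw [Nat.not_odd_iff_even] at hodd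
    rw [hodd.neg_one_pow] at h1
    apply h2
    linear_combination h1
  have hd₁ : Odd d₁ := by
    rw [hc] at hcard
    by_contra hodd
    rw [Nat.not_odd_iff_even] at hodd
    exact (Nat.not_even_iff_odd.2 hd₂) ((Nat.even_add.1 hcard).1 hodd)
  have key : P2C Γ g.1 := by
    apply P2C.transport P P' hPP' hP'P
    rw [hgb, hΓb]
    exact p2c_blocks h2 hd₁ hd₂ G₁ G₂ hsym.1 hsym.2.2.2 (left_ne_zero_of_mul hdetb)
      (right_ne_zero_of_mul hdetb)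
  refine key H (fun y hy => ⟨(hH y hy).1, ?_⟩) (fun c hc1 hc2 => hnorm c hc1 (Units.ext ?_)) hns
  · rw [← Units.val_mul, (hH y hy).2, Units.val_mul]
  · rw [Units.val_mul, hc2, Units.val_mul]

end Cfsg.Agent.Lib.Helper75.LBM
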