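import Cfsg.Agent.Lib.Helper75.LBMT
import Cfsg.Agent.Lib.Helper1.LBMG
import Cfsg.Agent.Lib.Helper1.LBMH
import Cfsg.Agent.Lib.Helper60.LBP2

set_option autoImplicit false

/-!
# S2733 farm (helper80), piece [I]: `p2c_II`
-/

namespace Cfsg.Agent.Lib.Helper75.LBM

open Matrix Cfsg.Agent.Lib.Helper80.LBM Cfsg.Agent.Lib.Helper1.LBM

variable {F : Type*} [Field F]

/-- restriction of scalars as a monoid homomorphism. -/
def rhoM (μ : F) (d : ℕ) :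
    Matrix (Fin d) (Fin d) (EE μ) →* Matrix (Fin d ⊕ Fin d) (Fin d ⊕ Fin d) F where
  toFun := rho μ
  map_one' := rho_one μ
  map_mul' := rho_mul μ

/-- restriction of scalars on general linear groups. -/
def rhoG (μ : F) (d : ℕ) : GL (Fin d) (EE μ) →* GL (Fin d ⊕ Fin d) F := Units.map (rhoM μ d)

lemma rhoG_val (μ : F) (d : ℕ) (z : GL (Fin d) (EE μ)) : (rhoG μ d z).1 = rho μ z.1 := rfl

lemma Del_cancel (μ : F) (hμ : μ ≠ 0) (d : ℕ) {X Y : Matrix (Fin d ⊕ Fin d) (Fin d ⊕ Fin d) F}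
    (h : Del μ d * X = Del μ d * Y) : X = Y := by
  have h1 : (fromBlocks 1 0 0 (μ⁻¹ • 1) : Matrix (Fin d ⊕ Fin d) (Fin d ⊕ Fin d) F) * Del μ d
      = 1 := by
    simp [Del, fromBlocks_multiply, smul_smul, hμ, fromBlocks_one]
  calc X = (fromBlocks 1 0 0 (μ⁻¹ • 1) * Del μ d) * X := by rw [h1, Matrix.one_mul]
    _ = (fromBlocks 1 0 0 (μ⁻¹ • 1) * Del μ d) * Y := by
        rw [Matrix.mul_assoc, h, ← Matrix.mul_assoc]
    _ = Y := by rw [h1, Matrix.one_mul]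

lemma isom_rho (μ : F) {d : ℕ} (G Z : Matrix (Fin d) (Fin d) (EE μ)) :
    (rho μ Z)ᵀ * (Del μ d * rho μ G) * rho μ Z = Del μ d * rho μ (Zᵀ * G * Z) := by
  rw [← Matrix.mul_assoc, rho_transpose_Del, rho_mul, rho_mul]
  simp only [Matrix.mul_assoc]

lemma comm_rho (μ : F) {d : ℕ} (Z : Matrix (Fin d) (Fin d) (EE μ)) :
    rho μ Z * g0 μ d = g0 μ d * rho μ Z := by
  rw [← rho_omega, ← rho_mul, ← rho_mul]
  congr 1
  simp

theorem p2c_E' [Fintype F] (h2 : (2 : F) ≠ 0) (μ : F) [hfact : Fact (∀ r : F, r ^ 2 ≠ μ + 0 * r)]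
    [Fintype (EE μ)] (hμ0 : μ ≠ 0) {d : ℕ} (hd : 3 ≤ d)
    (G : Matrix (Fin d) (Fin d) (EE μ)) (hG : Gᵀ = G) (hGu : IsUnit G) :
    P2C (Del μ d * rho μ G) (g0 μ d) := by
  intro H hH hnorm hns
  have h2E : (2 : EE μ) ≠ 0 := by
    intro h
    apply h2
    have h3 : algebraMap F (EE μ) 2 = algebraMap F (EE μ) 0 := by
      rw [map_ofNat, map_zero, h]
    exact (algebraMap F (EE μ)).injective h3
  have : Nonempty (Fin d) := ⟨⟨0, by omega⟩⟩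
  have hdetG : G.det ≠ 0 := ((Matrix.isUnit_iff_isUnit_det G).1 hGu).ne_zero
  have iso_iff : ∀ Z : Matrix (Fin d) (Fin d) (EE μ),
      (rho μ Z)ᵀ * (Del μ d * rho μ G) * rho μ Z = Del μ d * rho μ G ↔ Zᵀ * G * Z = G := by
    intro Z
    rw [isom_rho]
    constructor
    · intro h
      exact rho_injective μ (Del_cancel μ hμ0 d h)
    · intro h
      rw [h]
  have hA : ∀ z ∈ H.comap (rhoG μ d), z.1ᵀ * G * z.1 = G := by
    intro z hz
    exact (iso_iff z.1).1 (hH _ hz).1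
  have hB : ∀ x : GL (Fin d) (EE μ), x.1ᵀ * G * x.1 = G → ∀ z ∈ H.comap (rhoG μ d),
      x * z * x⁻¹ ∈ H.comap (rhoG μ d) := by
    intro x hx z hz
    rw [Subgroup.mem_comap, map_mul, map_mul, map_inv]
    exact hnorm (rhoG μ d x) ((iso_iff x.1).2 hx) (comm_rho μ x.1) _ hz
  have hC : ∃ z ∈ H.comap (rhoG μ d), ∀ c : EE μ, z.1 ≠ c • (1 : Matrix (Fin d) (Fin d) (EE μ)) := by
    obtain ⟨y, hy, hyns⟩ := hns
    obtain ⟨h1, h3⟩ := hH y hy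
    obtain ⟨Z, hZ⟩ := exists_rho_of_commute μ y.1 h3
    rw [hZ, iso_iff] at h1
    have hdZ : Z.det ≠ 0 := by
      intro h0
      apply hdetG
      rw [← h1, Matrix.det_mul, h0, mul_zero]
    have hy' : rhoG μ d (Matrix.GeneralLinearGroup.mkOfDetNeZero Z hdZ) = y := by
      apply Units.ext
      rw [rhoG_val, hZ]
      rfl
    refine ⟨Matrix.GeneralLinearGroup.mkOfDetNeZero Z hdZ, by
      rw [Subgroup.mem_comap, hy']; exact hy, ?_⟩
    intro c hc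
    have hc' : Z = c • 1 := hc
    have hcc : c * c = 1 := scalar_isom_sq G hdetG c (by rw [← hc']; exact h1)
    rcases mul_self_eq_one_iff.1 hcc with rfl | rfl
    · apply hyns 1
      rw [hZ, hc', one_smul, one_smul, rho_one]
    · apply hyns (-1)
      rw [hZ, hc', ← rho_algebraMap μ (-1), map_neg, map_one]
  obtain ⟨t, htK, htt, -, htns⟩ := Cfsg.Agent.Lib.Helper60.LBP.oddO_geom h2E hd G hG hdetG
    (H.comap (rhoG μ d)) hA hB hC
  refine ⟨_, htK, fun k hk c hc => htns (algebraMap F (EE μ) c) ?_⟩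
  rw [← map_pow, pow_odd_of_mul_self htt hk, rhoG_val, ← rho_algebraMap μ c] at hc
  exact rho_injective μ hc

theorem p2c_E [Fintype F] (h2 : (2 : F) ≠ 0) (μ : F) (hμ : ¬ IsSquare μ) {d : ℕ} (hd : 3 ≤ d)
    (G : Matrix (Fin d) (Fin d) (EE μ)) (hG : Gᵀ = G) (hGu : IsUnit G) :
    P2C (Del μ d * rho μ G) (g0 μ d) := by
  have hfact : Fact (∀ r : F, r ^ 2 ≠ μ + 0 * r) :=
    ⟨fun r hr => hμ ⟨r, by rw [← pow_two, hr]; ring⟩⟩
  have hfin : Fintype (EE μ) := Fintype.ofEquiv _ (QuadraticAlgebra.equivProd μ 0).symm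
  have hμ0 : μ ≠ 0 := by
    rintro rfl
    exact hμ ⟨0, by simp⟩
  exact p2c_E' h2 μ hμ0 hd G hG hGu

/-- [I] P2C-II: normal subgroups of the centraliser of a self-adjoint similarity `g` with
`g ^ 2 = μ`, `μ` a non-square. -/
theorem p2c_II {F : Type*} [Field F] [Fintype F] (h2 : (2 : F) ≠ 0) {ι : Type*} [Fintype ι]
    [DecidableEq ι] (Γ : Matrix ι ι F) (hΓ : Γᵀ = Γ) (hdet : Γ.det ≠ 0) (g : GL ι F) (μ : F)
    (hμ : ¬ IsSquare μ) (hg : g.1ᵀ * Γ * g.1 = μ • Γ) (hgg : g.1 * g.1 = μ • (1 : Matrix ι ι F))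
    (hcard : 6 ≤ Fintype.card ι)
    (H : Subgroup (GL ι F)) (hH : ∀ y ∈ H, y.1ᵀ * Γ * y.1 = Γ ∧ y * g = g * y)
    (hnorm : ∀ c : GL ι F, c.1ᵀ * Γ * c.1 = Γ → c * g = g * c → ∀ y ∈ H, c * y * c⁻¹ ∈ H)
    (hns : ∃ y ∈ H, ∀ c : F, y.1 ≠ c • (1 : Matrix ι ι F)) :
    ∃ t ∈ H, ∀ k : ℕ, Odd k → ∀ c : F, (t ^ k).1 ≠ c • (1 : Matrix ι ι F) := by
  have hμ0 : μ ≠ 0 := by
    rintro rfl
    exact hμ ⟨0, by simp⟩
  obtain ⟨d, P, P', hPP', hP'P, hgb⟩ := exists_E_basis g.1 μ hμ hgg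
  have hT : P'ᵀ * Pᵀ = 1 := by rw [← Matrix.transpose_mul, hPP', Matrix.transpose_one]
  have hadj : g.1ᵀ * Γ = Γ * g.1 := by
    have h1 : μ • (g.1ᵀ * Γ) = μ • (Γ * g.1) := by
      calc μ • (g.1ᵀ * Γ) = g.1ᵀ * Γ * (g.1 * g.1) := by
            rw [hgg, Matrix.mul_smul, Matrix.mul_one]
        _ = (g.1ᵀ * Γ * g.1) * g.1 := by simp only [Matrix.mul_assoc]
        _ = μ • (Γ * g.1) := by rw [hg, Matrix.smul_mul]
    exact smul_right_injective _ hμ0 h1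
  have hsym : (Pᵀ * Γ * P)ᵀ = Pᵀ * Γ * P := by
    simp only [Matrix.transpose_mul, Matrix.transpose_transpose, hΓ, Matrix.mul_assoc]
  have hadj' : Pᵀ * Γ * P * g0 μ d = (g0 μ d)ᵀ * (Pᵀ * Γ * P) := by
    rw [← hgb]
    calc Pᵀ * Γ * P * (P' * g.1 * P) = Pᵀ * (Γ * (P * P') * g.1) * P := by
          simp only [Matrix.mul_assoc]
      _ = Pᵀ * (g.1ᵀ * (P'ᵀ * Pᵀ) * Γ) * P := by
          rw [hPP', hT, Matrix.mul_one, Matrix.mul_one, hadj]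
      _ = (P' * g.1 * P)ᵀ * (Pᵀ * Γ * P) := by
          simp only [Matrix.transpose_mul, Matrix.mul_assoc]
  obtain ⟨G, hG, hΓG⟩ := exists_sym_of_adj μ hμ0 _ hsym hadj'
  have hdetb : (Pᵀ * Γ * P).det ≠ 0 := det_congr_ne_zero P P' hPP' hP'P Γ hdet
  rw [hΓG, Matrix.det_mul] at hdetb
  have hGu : IsUnit G := isUnit_of_rho μ G
    ((Matrix.isUnit_iff_isUnit_det _).2 (isUnit_iff_ne_zero.2 (right_ne_zero_of_mul hdetb)))
  have hd : 3 ≤ d := by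
    rw [card_eq_of_mul_eq_one P P' hPP' hP'P] at hcard
    simp at hcard
    omega
  have key : P2C Γ g.1 := by
    apply P2C.transport P P' hPP' hP'P
    rw [hgb, hΓG]
    exact p2c_E h2 μ hμ hd G hG hGu
  refine key H (fun y hy => ⟨(hH y hy).1, ?_⟩) (fun c hc1 hc2 => hnorm c hc1 (Units.ext ?_)) hns
  · rw [← Units.val_mul, (hH y hy).2, Units.val_mul]
  · rw [Units.val_mul, hc2, Units.val_mul]

end Cfsg.Agent.Lib.Helper75.LBM
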