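import Mathlib

set_option autoImplicit false

/-!
# S2733 farm (helper80): transport of the "P2C" property along a change of basis
-/

namespace Cfsg.Agent.Lib.Helper75.LBM

open Matrix

variable {F : Type*} [Field F]

/-- the property proved in pieces [F] and [I]. -/
def P2C {ι : Type*} [Fintype ι] [DecidableEq ι] (Γ g : Matrix ι ι F) : Prop :=
  ∀ H : Subgroup (GL ι F), (∀ y ∈ H, y.1ᵀ * Γ * y.1 = Γ ∧ y.1 * g = g * y.1) →
    (∀ c : GL ι F, c.1ᵀ * Γ * c.1 = Γ → c.1 * g = g * c.1 → ∀ y ∈ H, c * y * c⁻¹ ∈ H) →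
    (∃ y ∈ H, ∀ c : F, y.1 ≠ c • (1 : Matrix ι ι F)) →
    ∃ t ∈ H, ∀ k : ℕ, Odd k → ∀ c : F, (t ^ k).1 ≠ c • (1 : Matrix ι ι F)

section transport

variable {ι κ : Type*} [Fintype ι] [DecidableEq ι] [Fintype κ] [DecidableEq κ]

/-- conjugation by a base change, as a monoid homomorphism. -/
def cjM (P : Matrix ι κ F) (P' : Matrix κ ι F) (h : P * P' = 1) (h' : P' * P = 1) :
    Matrix ι ι F →* Matrix κ κ F where
  toFun y := P' * y * P
  map_one' := by rw [Matrix.mul_one, h']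
  map_mul' a b := by
    calc P' * (a * b) * P = P' * (a * 1 * b) * P := by rw [Matrix.mul_one]
      _ = P' * a * P * (P' * b * P) := by rw [← h]; simp only [Matrix.mul_assoc]

/-- conjugation by a base change on the general linear groups. -/
def cjG (P : Matrix ι κ F) (P' : Matrix κ ι F) (h : P * P' = 1) (h' : P' * P = 1) :
    GL ι F →* GL κ F := Units.map (cjM P P' h h')

lemma cjG_val (P : Matrix ι κ F) (P' : Matrix κ ι F) (h : P * P' = 1) (h' : P' * P = 1)
    (y : GL ι F) : (cjG P P' h h' y).1 = P' * y.1 * P := rfl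

lemma cjG_cjG (P : Matrix ι κ F) (P' : Matrix κ ι F) (h : P * P' = 1) (h' : P' * P = 1)
    (y : GL κ F) : cjG P P' h h' (cjG P' P h' h y) = y := by
  apply Units.ext
  rw [cjG_val, cjG_val]
  calc P' * (P * y.1 * P') * P = (P' * P) * y.1 * (P' * P) := by simp only [Matrix.mul_assoc]
    _ = y.1 := by rw [h', Matrix.one_mul, Matrix.mul_one]

theorem P2C.transport (P : Matrix ι κ F) (P' : Matrix κ ι F) (h : P * P' = 1) (h' : P' * P = 1)
    (Γ g : Matrix ι ι F) (hp : P2C (Pᵀ * Γ * P) (P' * g * P)) : P2C Γ g := by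
  intro H hH hnorm hns
  have hT : P'ᵀ * Pᵀ = 1 := by rw [← Matrix.transpose_mul, h, Matrix.transpose_one]
  have hT' : Pᵀ * P'ᵀ = 1 := by rw [← Matrix.transpose_mul, h', Matrix.transpose_one]
  have key := hp (H.map (cjG P P' h h')) ?_ ?_ ?_
  · obtain ⟨t', ht', hk⟩ := key
    obtain ⟨t, ht, rfl⟩ := ht'
    refine ⟨t, ht, fun k hkodd c hc => hk k hkodd c ?_⟩
    rw [← map_pow, cjG_val, hc, Matrix.mul_smul, Matrix.mul_one, Matrix.smul_mul, h']
  · rintro _ ⟨y, hy, rfl⟩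
    obtain ⟨h1, h2⟩ := hH y hy
    constructor
    · rw [cjG_val]
      calc (P' * y.1 * P)ᵀ * (Pᵀ * Γ * P) * (P' * y.1 * P)
          = Pᵀ * (y.1ᵀ * ((P'ᵀ * Pᵀ) * Γ * (P * P')) * y.1) * P := by
            simp only [Matrix.transpose_mul, Matrix.mul_assoc]
        _ = Pᵀ * Γ * P := by
            rw [hT, h, Matrix.one_mul, Matrix.mul_one, h1]
    · rw [cjG_val]
      calc P' * y.1 * P * (P' * g * P) = P' * (y.1 * (P * P') * g) * P := by
            simp only [Matrix.mul_assoc]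
        _ = P' * (g * (P * P') * y.1) * P := by rw [h, Matrix.mul_one, Matrix.mul_one, h2]
        _ = P' * g * P * (P' * y.1 * P) := by simp only [Matrix.mul_assoc]
  · rintro c hc1 hc2 _ ⟨y, hy, rfl⟩
    refine ⟨cjG P' P h' h c * y * (cjG P' P h' h c)⁻¹, hnorm _ ?_ ?_ y hy, ?_⟩
    · rw [cjG_val]
      calc (P * c.1 * P')ᵀ * Γ * (P * c.1 * P')
          = P'ᵀ * (c.1ᵀ * (Pᵀ * Γ * P) * c.1) * P' := by
            simp only [Matrix.transpose_mul, Matrix.mul_assoc]
        _ = (P'ᵀ * Pᵀ) * Γ * (P * P') := by rw [hc1]; simp only [Matrix.mul_assoc]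
        _ = Γ := by rw [hT, h, Matrix.one_mul, Matrix.mul_one]
    · rw [cjG_val]
      calc P * c.1 * P' * g = P * c.1 * P' * g * (P * P') := by rw [h, Matrix.mul_one]
        _ = P * (c.1 * (P' * g * P)) * P' := by simp only [Matrix.mul_assoc]
        _ = (P * P') * g * (P * c.1 * P') := by rw [hc2]; simp only [Matrix.mul_assoc]
        _ = g * (P * c.1 * P') := by rw [h, Matrix.one_mul]
    · rw [map_mul, map_mul, map_inv, cjG_cjG]
  · obtain ⟨y, hy, hyns⟩ := hns
    refine ⟨_, ⟨y, hy, rfl⟩, fun c hc => hyns c ?_⟩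
    rw [cjG_val] at hc
    calc y.1 = (P * P') * y.1 * (P * P') := by rw [h, Matrix.one_mul, Matrix.mul_one]
      _ = P * (P' * y.1 * P) * P' := by simp only [Matrix.mul_assoc]
      _ = c • 1 := by rw [hc, Matrix.mul_smul, Matrix.mul_one, Matrix.smul_mul, h]

end transport

section misc

variable {ι κ : Type*} [Fintype ι] [DecidableEq ι] [Fintype κ] [DecidableEq κ]

omit [DecidableEq κ] in
lemma card_le_of_mul_eq_one (P : Matrix ι κ F) (P' : Matrix κ ι F) (h : P * P' = 1) :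
    Fintype.card ι ≤ Fintype.card κ := by
  have h1 : (P * P').rank ≤ P.rank := Matrix.rank_mul_le_left P P'
  rw [h, Matrix.rank_one] at h1
  exact h1.trans (Matrix.rank_le_card_width P)

lemma card_eq_of_mul_eq_one (P : Matrix ι κ F) (P' : Matrix κ ι F) (h : P * P' = 1)
    (h' : P' * P = 1) : Fintype.card ι = Fintype.card κ :=
  le_antisymm (card_le_of_mul_eq_one P P' h) (card_le_of_mul_eq_one P' P h')

lemma det_congr_ne_zero (P : Matrix ι κ F) (P' : Matrix κ ι F) (h : P * P' = 1)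
    (h' : P' * P = 1) (Γ : Matrix ι ι F) (hΓ : Γ.det ≠ 0) : (Pᵀ * Γ * P).det ≠ 0 := by
  have hT' : Pᵀ * P'ᵀ = 1 := by rw [← Matrix.transpose_mul, h', Matrix.transpose_one]
  apply Matrix.det_ne_zero_of_right_inverse (B := P' * Γ⁻¹ * P'ᵀ)
  calc Pᵀ * Γ * P * (P' * Γ⁻¹ * P'ᵀ) = Pᵀ * (Γ * (P * P') * Γ⁻¹) * P'ᵀ := by
        simp only [Matrix.mul_assoc]
    _ = 1 := by
        rw [h, Matrix.mul_one, Matrix.mul_nonsing_inv _ (isUnit_iff_ne_zero.2 hΓ), Matrix.mul_one,
          hT']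

/-- a scalar isometry of a nonzero form squares to one. -/
lemma scalar_isom_sq [Nonempty ι] (G : Matrix ι ι F) (hG : G.det ≠ 0) (a : F)
    (h : (a • (1 : Matrix ι ι F))ᵀ * G * (a • (1 : Matrix ι ι F)) = G) : a * a = 1 := by
  have hG0 : G ≠ 0 := by
    rintro rfl
    exact hG Matrix.det_zero
  have h1 : (a * a - 1) • G = 0 := by
    rw [sub_smul, one_smul, sub_eq_zero]
    conv_rhs => rw [← h]
    simp [smul_smul]
  rcases smul_eq_zero.1 h1 with h3 | h3
  · exact sub_eq_zero.1 h3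
  · exact absurd h3 hG0

end misc

/-- an involution has `t ^ k = t` for odd `k`. -/
lemma pow_odd_of_mul_self {M : Type*} [Monoid M] {t : M} (ht : t * t = 1) {k : ℕ} (hk : Odd k) :
    t ^ k = t := by
  obtain ⟨m, rfl⟩ := hk
  rw [pow_succ, pow_mul, pow_two, ht, one_pow, one_mul]

end Cfsg.Agent.Lib.Helper75.LBM
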